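import Mathlib
import Cfsg.Agent.Lib.Helper51.TI3.Defs

/-!
# S3117 package (QB4): an anisotropic quadratic map into a group of order 4 has `|W| ≤ 16`

`lemBound4 : LemK → LemBound4`.  Reduce to `|W| = 32`; for `w ≠ 1` the subgroup
`U_w = {u | β u w = 1}` has order exactly `8` (at least `8` as a kernel, at most `8` by `LemK`);
it contains exactly three elements of each `sq`-value `t ∉ {1, sq w}`; double counting the pairs
`(w, u)` with `sq w = c`, `sq u = a`, `β u w = 1` gives `N(c) = N(a)` for the numbers of elements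
of given `sq`-value, so `31 = 3 N(a)`, which is absurd.
-/

set_option autoImplicit false

universe u v

namespace Cfsg.Agent.Lib.Helper29.TI3

open Cfsg.Agent.Lib.Helper51.TI3

section basics

theorem e2_inv {X : Type*} [Group X] (h : ∀ x : X, x * x = 1) (x : X) : x⁻¹ = x :=
  inv_eq_of_mul_eq_one_right (h x)

theorem e2_comm {X : Type*} [Group X] (h : ∀ x : X, x * x = 1) (a b : X) : a * b = b * a := by
  have h1 : a * b = (a * b)⁻¹ := (e2_inv h (a * b)).symm
  rw [mul_inv_rev, e2_inv h a, e2_inv h b] at h1
  exact h1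

theorem e2_mul_eq {X : Type*} [Group X] (h : ∀ x : X, x * x = 1) (a b c : X) (hab : a * b = c) :
    b = a * c := by
  have h1 : b = a⁻¹ * c := eq_inv_mul_of_mul_eq hab
  rw [e2_inv h a] at h1
  exact h1

variable {W : Type u} {T : Type v} [Group W] [Group T] (Q : QD W T)

theorem qd_beta_one_left (u : W) : Q.β 1 u = 1 := by
  have h := Q.β_mul 1 1 u
  rw [one_mul] at h
  exact left_eq_mul.mp h

theorem qd_sq_one : Q.sq 1 = 1 := by
  have h := Q.sq_mul 1 1
  rw [one_mul, qd_beta_one_left, mul_one] at h
  exact left_eq_mul.mp h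

theorem qd_beta_self (w : W) : Q.β w w = 1 := by
  have h := Q.sq_mul w w
  rw [Q.hW w, qd_sq_one, Q.hT (Q.sq w), one_mul] at h
  exact h.symm

theorem qd_beta_symm (w u : W) : Q.β w u = Q.β u w := by
  have h1 := Q.sq_mul w u
  have h2 := Q.sq_mul u w
  rw [e2_comm Q.hW u w, h1, e2_comm Q.hT (Q.sq u) (Q.sq w)] at h2
  exact mul_left_cancel h2

end basics

theorem four_elts {T : Type v} [Group T] [Fintype T] [DecidableEq T]
    (hT : Fintype.card T = 4) (c t : T) (hc : c ≠ 1) (ht : t ≠ 1) (htc : t ≠ c)
    (hTT : ∀ x : T, x * x = 1) :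
    (Finset.univ : Finset T) = {1, c, t, t * c} := by
  symm
  apply Finset.eq_univ_of_card
  rw [hT]
  have h1 : t * c ≠ 1 := by
    intro h
    have h2 : t = c⁻¹ := eq_inv_of_mul_eq_one_left h
    rw [inv_eq_of_mul_eq_one_right (hTT c)] at h2
    exact htc h2
  have h2 : t * c ≠ c := fun h => ht (mul_eq_right.mp h)
  have h3 : t * c ≠ t := fun h => hc (mul_eq_left.mp h)
  rw [Finset.card_insert_of_notMem, Finset.card_insert_of_notMem, Finset.card_insert_of_notMem,
    Finset.card_singleton]
  · rw [Finset.mem_singleton]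
    exact fun h => h3 h.symm
  · rw [Finset.mem_insert, Finset.mem_singleton]
    rintro (h | h)
    · exact htc h.symm
    · exact h2 h.symm
  · rw [Finset.mem_insert, Finset.mem_insert, Finset.mem_singleton]
    rintro (h | h | h)
    · exact hc h.symm
    · exact ht h.symm
    · exact h1 h.symm

theorem four_sum {T : Type v} [Group T] [Fintype T] [DecidableEq T]
    (hT : Fintype.card T = 4) (c t : T) (hc : c ≠ 1) (ht : t ≠ 1) (htc : t ≠ c)
    (hTT : ∀ x : T, x * x = 1) (f : T → ℕ) :
    ∑ x : T, f x = f 1 + f c + f t + f (t * c) := by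
  have h1 : t * c ≠ 1 := by
    intro h
    have h2 : t = c⁻¹ := eq_inv_of_mul_eq_one_left h
    rw [inv_eq_of_mul_eq_one_right (hTT c)] at h2
    exact htc h2
  have h2 : t * c ≠ c := fun h => ht (mul_eq_right.mp h)
  have h3 : t * c ≠ t := fun h => hc (mul_eq_left.mp h)
  rw [four_elts hT c t hc ht htc hTT, Finset.sum_insert, Finset.sum_insert, Finset.sum_insert,
    Finset.sum_singleton]
  · ring
  · rw [Finset.mem_singleton]
    exact fun h => h3 h.symm
  · rw [Finset.mem_insert, Finset.mem_singleton]
    rintro (h | h)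
    · exact htc h.symm
    · exact h2 h.symm
  · rw [Finset.mem_insert, Finset.mem_insert, Finset.mem_singleton]
    rintro (h | h | h)
    · exact hc h.symm
    · exact ht h.symm
    · exact h1 h.symm

/-- The case `|W| = 32` is impossible. -/
theorem bound4_aux (hK : LemK.{u, v}) {W : Type u} {T : Type v} [Group W] [Group T] [Finite W]
    [Finite T] (Q : QD W T) (hT : Nat.card T = 4) (han : ∀ w : W, Q.sq w = 1 → w = 1)
    (hW32 : Nat.card W = 32) : False := by
  classical
  letI : Fintype W := Fintype.ofFinite W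
  letI : Fintype T := Fintype.ofFinite T
  have hT' : Fintype.card T = 4 := by rw [← Nat.card_eq_fintype_card]; exact hT
  have hW' : Fintype.card W = 32 := by rw [← Nat.card_eq_fintype_card]; exact hW32
  have hsq1 : Q.sq 1 = 1 := qd_sq_one Q
  -- basic fact: an element of `U_w` other than `1, w` has `sq`-value outside `{1, sq w}`
  have key0 : ∀ w x : W, Q.β x w = 1 → x ≠ 1 → x ≠ w → Q.sq x ≠ 1 ∧ Q.sq x ≠ Q.sq w := by
    intro w x hb hx1 hxw
    refine ⟨fun h => hx1 (han x h), fun h => ?_⟩
    have h1 := Q.sq_mul x w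
    rw [hb, h, mul_one, Q.hT] at h1
    have h2 : x = w⁻¹ := eq_inv_of_mul_eq_one_left (han _ h1)
    rw [e2_inv Q.hW w] at h2
    exact hxw h2
  -- Step B: `|U_w| = 8`
  have hU : ∀ w : W, w ≠ 1 → (Finset.univ.filter (fun u : W => Q.β u w = 1)).card = 8 := by
    intro w hw
    let f : W →* T :=
      { toFun := fun u => Q.β u w
        map_one' := qd_beta_one_left Q w
        map_mul' := fun a b => Q.β_mul a b w }
    have hker : (Finset.univ.filter (fun u : W => Q.β u w = 1)).card = Nat.card f.ker := by
      have e : f.ker ≃ {u : W // Q.β u w = 1} :=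
        Equiv.subtypeEquivRight (fun x => MonoidHom.mem_ker)
      rw [Nat.card_congr e, Nat.card_eq_fintype_card, Fintype.card_subtype]
    have hmul : Nat.card f.ker * Nat.card f.range = 32 := by
      rw [← Subgroup.index_ker, Subgroup.card_mul_index, hW32]
    have hdvd : Nat.card f.range ∣ 4 := by
      rw [← hT]
      exact Subgroup.card_subgroup_dvd_card f.range
    have hr4 : Nat.card f.range ≤ 4 := Nat.le_of_dvd (by norm_num) hdvd
    have hge : 8 ≤ Nat.card f.ker := by
      by_contra hlt
      push Not at hlt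
      have : Nat.card f.ker * Nat.card f.range ≤ 7 * 4 :=
        Nat.mul_le_mul (by omega) hr4
      omega
    have hle : Nat.card f.ker ≤ 8 := by
      by_contra hgt
      push Not at hgt
      rw [← hker] at hgt
      have hmemK : ∀ x : W, x ∈ Finset.univ.filter (fun u : W => Q.β u w = 1) ↔ Q.β x w = 1 := by
        intro x
        rw [Finset.mem_filter]
        exact ⟨fun h => h.2, fun h => ⟨Finset.mem_univ _, h⟩⟩
      obtain ⟨u1, hu1K, hu1⟩ := Finset.exists_mem_notMem_of_card_lt_card
        (s := ([1, w] : List W).toFinset) (t := Finset.univ.filter (fun u : W => Q.β u w = 1))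
        (lt_of_le_of_lt (List.toFinset_card_le _)
          (by simp only [List.length_cons, List.length_nil]; omega))
      obtain ⟨u2, hu2K, hu2⟩ := Finset.exists_mem_notMem_of_card_lt_card
        (s := ([1, w, u1, u1 * w] : List W).toFinset)
        (t := Finset.univ.filter (fun u : W => Q.β u w = 1))
        (lt_of_le_of_lt (List.toFinset_card_le _)
          (by simp only [List.length_cons, List.length_nil]; omega))
      obtain ⟨u3, hu3K, hu3⟩ := Finset.exists_mem_notMem_of_card_lt_card
        (s := ([1, w, u1, u1 * w, u2, u2 * w, u1 * u2, u1 * u2 * w] : List W).toFinset)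
        (t := Finset.univ.filter (fun u : W => Q.β u w = 1))
        (lt_of_le_of_lt (List.toFinset_card_le _)
          (by simp only [List.length_cons, List.length_nil]; omega))
      rw [hmemK] at hu1K hu2K hu3K
      have hu1' : ∀ z ∈ ([1, w] : List W), u1 ≠ z := by
        intro z hz h
        apply hu1
        rw [h]
        exact List.mem_toFinset.mpr hz
      have hu2' : ∀ z ∈ ([1, w, u1, u1 * w] : List W), u2 ≠ z := by
        intro z hz h
        apply hu2
        rw [h]
        exact List.mem_toFinset.mpr hz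
      have hu3' : ∀ z ∈ ([1, w, u1, u1 * w, u2, u2 * w, u1 * u2, u1 * u2 * w] : List W),
          u3 ≠ z := by
        intro z hz h
        apply hu3
        rw [h]
        exact List.mem_toFinset.mpr hz
      have h11 : u1 ≠ 1 := hu1' 1 (by simp)
      have h1w : u1 ≠ w := hu1' w (by simp)
      obtain ⟨hs1, hs1c⟩ := key0 w u1 hu1K h11 h1w
      have hc1 : Q.sq w ≠ 1 := fun h => hw (han w h)
      have huniv := four_elts hT' (Q.sq w) (Q.sq u1) hc1 hs1 hs1c Q.hT
      have hb1 : Q.sq u1 * Q.sq w ≠ 1 := by
        intro h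
        have h2 : Q.sq u1 = (Q.sq w)⁻¹ := eq_inv_of_mul_eq_one_left h
        rw [e2_inv Q.hT] at h2
        exact hs1c h2
      have key : ∀ x : W, Q.β x w = 1 → x ≠ 1 → x ≠ w →
          Q.sq x = Q.sq u1 ∨ Q.sq x = Q.sq u1 * Q.sq w := by
        intro x hb hx1 hxw
        obtain ⟨h1, h2⟩ := key0 w x hb hx1 hxw
        have hx : Q.sq x ∈ (Finset.univ : Finset T) := Finset.mem_univ _
        rw [huniv, Finset.mem_insert, Finset.mem_insert, Finset.mem_insert,
          Finset.mem_singleton] at hx
        rcases hx with hx | hx | hx | hx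
        · exact absurd hx h1
        · exact absurd hx h2
        · exact Or.inl hx
        · exact Or.inr hx
      have hb12 : Q.β (u1 * u2) w = 1 := by rw [Q.β_mul, hu1K, hu2K, mul_one]
      have hb13 : Q.β (u1 * u3) w = 1 := by rw [Q.β_mul, hu1K, hu3K, mul_one]
      have hb23 : Q.β (u2 * u3) w = 1 := by rw [Q.β_mul, hu2K, hu3K, mul_one]
      have hb123 : Q.β (u1 * u2 * u3) w = 1 := by rw [Q.β_mul, hb12, hu3K, mul_one]
      refine hK Q u1 u2 u3 (Q.sq u1) (Q.sq u1 * Q.sq w) hs1 hb1 ?_
      rintro x (rfl | rfl | rfl | rfl | rfl | rfl | rfl)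
      · exact key _ hu1K h11 h1w
      · exact key _ hu2K (hu2' 1 (by simp)) (hu2' w (by simp))
      · exact key _ hu3K (hu3' 1 (by simp)) (hu3' w (by simp))
      · refine key _ hb12 (fun h => ?_) (fun h => ?_)
        · have := e2_mul_eq Q.hW _ _ _ h
          rw [mul_one] at this
          exact hu2' u1 (by simp) this
        · exact hu2' (u1 * w) (by simp) (e2_mul_eq Q.hW _ _ _ h)
      · refine key _ hb13 (fun h => ?_) (fun h => ?_)
        · have := e2_mul_eq Q.hW _ _ _ h
          rw [mul_one] at this
          exact hu3' u1 (by simp) this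
        · exact hu3' (u1 * w) (by simp) (e2_mul_eq Q.hW _ _ _ h)
      · refine key _ hb23 (fun h => ?_) (fun h => ?_)
        · have := e2_mul_eq Q.hW _ _ _ h
          rw [mul_one] at this
          exact hu3' u2 (by simp) this
        · exact hu3' (u2 * w) (by simp) (e2_mul_eq Q.hW _ _ _ h)
      · refine key _ hb123 (fun h => ?_) (fun h => ?_)
        · have := e2_mul_eq Q.hW _ _ _ h
          rw [mul_one] at this
          exact hu3' (u1 * u2) (by simp) this
        · exact hu3' (u1 * u2 * w) (by simp) (e2_mul_eq Q.hW _ _ _ h)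
    rw [hker]
    omega
  -- Step A: exactly three elements of `U_w` of each `sq`-value `t ∉ {1, sq w}`
  have hA : ∀ w : W, w ≠ 1 → ∀ t : T, t ≠ 1 → t ≠ Q.sq w →
      ((Finset.univ.filter (fun u : W => Q.sq u = t)).filter (fun u => Q.β u w = 1)).card = 3 := by
    intro w hw t ht htc
    have hc1 : Q.sq w ≠ 1 := fun h => hw (han w h)
    have hfib := Finset.card_eq_sum_card_fiberwise (f := Q.sq)
      (s := Finset.univ.filter (fun u : W => Q.β u w = 1)) (t := (Finset.univ : Finset T))
      (fun x _ => Finset.mem_coe.mpr (Finset.mem_univ _))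
    rw [hU w hw, four_sum hT' (Q.sq w) t hc1 ht htc Q.hT] at hfib
    have hF1 : ((Finset.univ.filter (fun u : W => Q.β u w = 1)).filter
        (fun a => Q.sq a = 1)).card = 1 := by
      rw [Finset.card_eq_one]
      refine ⟨1, ?_⟩
      ext a
      rw [Finset.mem_filter, Finset.mem_filter, Finset.mem_singleton]
      constructor
      · rintro ⟨-, h⟩
        exact han a h
      · rintro rfl
        exact ⟨⟨Finset.mem_univ _, qd_beta_one_left Q w⟩, hsq1⟩
    have hFc : ((Finset.univ.filter (fun u : W => Q.β u w = 1)).filter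
        (fun a => Q.sq a = Q.sq w)).card = 1 := by
      rw [Finset.card_eq_one]
      refine ⟨w, ?_⟩
      ext a
      rw [Finset.mem_filter, Finset.mem_filter, Finset.mem_singleton]
      constructor
      · rintro ⟨⟨-, hb⟩, h⟩
        by_contra haw
        have ha1 : a ≠ 1 := by
          rintro rfl
          rw [hsq1] at h
          exact hc1 h.symm
        exact (key0 w a hb ha1 haw).2 h
      · rintro rfl
        exact ⟨⟨Finset.mem_univ _, qd_beta_self Q a⟩, rfl⟩
    have hFt : ((Finset.univ.filter (fun u : W => Q.β u w = 1)).filter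
        (fun a => Q.sq a = t)).card = ((Finset.univ.filter (fun u : W => Q.β u w = 1)).filter
        (fun a => Q.sq a = t * Q.sq w)).card := by
      apply Finset.card_nbij' (fun a => a * w) (fun a => a * w)
      · intro a ha
        rw [Finset.mem_coe, Finset.mem_filter, Finset.mem_filter] at ha ⊢
        obtain ⟨⟨-, hb⟩, hs⟩ := ha
        refine ⟨⟨Finset.mem_univ _, ?_⟩, ?_⟩
        · rw [Q.β_mul, hb, qd_beta_self, mul_one]
        · rw [Q.sq_mul, hb, hs, mul_one]
      · intro a ha
        rw [Finset.mem_coe, Finset.mem_filter, Finset.mem_filter] at ha ⊢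
        obtain ⟨⟨-, hb⟩, hs⟩ := ha
        refine ⟨⟨Finset.mem_univ _, ?_⟩, ?_⟩
        · rw [Q.β_mul, hb, qd_beta_self, mul_one]
        · rw [Q.sq_mul, hb, hs, mul_one, mul_assoc, Q.hT, mul_one]
      · intro a _
        show a * w * w = a
        rw [mul_assoc, Q.hW, mul_one]
      · intro a _
        show a * w * w = a
        rw [mul_assoc, Q.hW, mul_one]
    rw [Finset.filter_comm]
    rw [hF1, hFc, ← hFt] at hfib
    omega
  -- the numbers of elements of given `sq`-value
  have hNeq : ∀ a c : T, a ≠ 1 → c ≠ 1 → a ≠ c →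
      (Finset.univ.filter (fun w : W => Q.sq w = c)).card =
        (Finset.univ.filter (fun w : W => Q.sq w = a)).card := by
    intro a c ha hc hac
    have h := Finset.sum_card_bipartiteAbove_eq_sum_card_bipartiteBelow
      (s := Finset.univ.filter (fun w : W => Q.sq w = c))
      (t := Finset.univ.filter (fun u : W => Q.sq u = a)) (fun w u => Q.β u w = 1)
    have h1 : ∀ w ∈ Finset.univ.filter (fun w : W => Q.sq w = c),
        (Finset.bipartiteAbove (fun w u => Q.β u w = 1)
          (Finset.univ.filter (fun u : W => Q.sq u = a)) w).card = 3 := by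
      intro w hw
      rw [Finset.mem_filter] at hw
      have hw1 : w ≠ 1 := by
        rintro rfl
        rw [hsq1] at hw
        exact hc hw.2.symm
      exact hA w hw1 a ha (by rw [hw.2]; exact hac)
    have h2 : ∀ u ∈ Finset.univ.filter (fun u : W => Q.sq u = a),
        (Finset.bipartiteBelow (fun w u => Q.β u w = 1)
          (Finset.univ.filter (fun w : W => Q.sq w = c)) u).card = 3 := by
      intro u hu
      rw [Finset.mem_filter] at hu
      have hu1 : u ≠ 1 := by
        rintro rfl
        rw [hsq1] at hu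
        exact ha hu.2.symm
      have h3 := hA u hu1 c hc (by rw [hu.2]; exact hac.symm)
      rw [← h3]
      unfold Finset.bipartiteBelow
      congr 1
      apply Finset.filter_congr
      intro w _
      show Q.β u w = 1 ↔ Q.β w u = 1
      rw [qd_beta_symm Q u w]
    rw [Finset.sum_congr rfl h1, Finset.sum_congr rfl h2, Finset.sum_const, Finset.sum_const,
      smul_eq_mul, smul_eq_mul] at h
    omega
  -- conclusion
  obtain ⟨w0, hw0⟩ : ∃ w0 : W, w0 ≠ 1 := by
    by_contra h
    push Not at h
    have : Fintype.card W ≤ 1 := Fintype.card_le_one_iff.mpr (fun a b => by rw [h a, h b])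
    omega
  have hc1 : Q.sq w0 ≠ 1 := fun h => hw0 (han w0 h)
  obtain ⟨t, ht⟩ : ∃ t : T, t ∉ ({1, Q.sq w0} : Finset T) := by
    by_contra h
    push Not at h
    have h1 : Fintype.card T ≤ 2 := by
      calc Fintype.card T = (Finset.univ : Finset T).card := Finset.card_univ.symm
        _ ≤ ({1, Q.sq w0} : Finset T).card := Finset.card_le_card (fun x _ => h x)
        _ ≤ 2 := Finset.card_le_two
    omega
  rw [Finset.mem_insert, Finset.mem_singleton, not_or] at ht
  obtain ⟨ht1, htc⟩ := ht
  have hb1 : t * Q.sq w0 ≠ 1 := by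
    intro h
    have h2 : t = (Q.sq w0)⁻¹ := eq_inv_of_mul_eq_one_left h
    rw [e2_inv Q.hT] at h2
    exact htc h2
  have hb2 : t * Q.sq w0 ≠ Q.sq w0 := fun h => ht1 (mul_eq_right.mp h)
  have htot := Finset.card_eq_sum_card_fiberwise (f := Q.sq)
    (s := (Finset.univ : Finset W)) (t := (Finset.univ : Finset T))
    (fun x _ => Finset.mem_coe.mpr (Finset.mem_univ _))
  rw [Finset.card_univ, hW', four_sum hT' (Q.sq w0) t hc1 ht1 htc Q.hT] at htot
  have hN1 : (Finset.univ.filter (fun w : W => Q.sq w = 1)).card = 1 := by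
    rw [Finset.card_eq_one]
    refine ⟨1, ?_⟩
    ext a
    rw [Finset.mem_filter, Finset.mem_singleton]
    constructor
    · rintro ⟨-, h⟩
      exact han a h
    · rintro rfl
      exact ⟨Finset.mem_univ _, hsq1⟩
  have e1 := hNeq t (Q.sq w0) ht1 hc1 htc
  have e2 := hNeq (t * Q.sq w0) (Q.sq w0) hb1 hc1 hb2
  rw [hN1] at htot
  omega

/-- **(QB4)** target of order 4 and anisotropic: `|W| ≤ 16`. -/
theorem lemBound4 (hK : LemK.{u, v}) : LemBound4.{u, v} := by
  intro W T _ _ _ _ Q hT han
  by_contra hlt
  push Not at hlt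
  have hp : IsPGroup 2 W := by
    intro g
    exact ⟨1, by rw [pow_one, pow_two]; exact Q.hW g⟩
  obtain ⟨n, hn⟩ := IsPGroup.iff_card.mp hp
  have hn5 : 5 ≤ n := by
    by_contra h
    push Not at h
    have : 2 ^ n ≤ 2 ^ 4 := Nat.pow_le_pow_right (by norm_num) (by omega)
    omega
  haveI : Fact (Nat.Prime 2) := ⟨Nat.prime_two⟩
  obtain ⟨K, hKcard⟩ := Sylow.exists_subgroup_card_pow_prime 2 (G := W) (n := 5)
    (by rw [hn]; exact pow_dvd_pow 2 hn5)
  let Q' : QD ↥K T :=
    { sq := fun w => Q.sq (w : W)
      β := fun w u => Q.β (w : W) (u : W)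
      hW := fun w => Subtype.ext (Q.hW (w : W))
      hT := Q.hT
      sq_mul := fun w w' => Q.sq_mul (w : W) (w' : W)
      β_mul := fun w w' u => Q.β_mul (w : W) (w' : W) (u : W) }
  exact bound4_aux hK Q' hT (fun w hw => Subtype.ext (han (w : W) hw)) (by rw [hKcard]; norm_num)

end Cfsg.Agent.Lib.Helper29.TI3
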